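import Mathlib

set_option autoImplicit false

namespace Cfsg.Agent.Lev

open Module

universe u

variable {F : Type u} [Field F] {V : Type u} [AddCommGroup V] [Module F V]

/-- the field has at least four elements -/
def Big (F : Type u) : Prop := ∀ x y z : F, ∃ w, w ≠ x ∧ w ≠ y ∧ w ≠ z

theorem exists_t (h3 : Big F) {a₁ b₁ a₂ b₂ a₃ b₃ : F} (h₁ : a₁ ≠ 0 ∨ a₁ + b₁ ≠ 0)
    (h₂ : a₂ ≠ 0 ∨ a₂ + b₂ ≠ 0) (h₃ : a₃ ≠ 0 ∨ a₃ + b₃ ≠ 0) :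
    ∃ t, a₁ + t * b₁ ≠ 0 ∧ a₂ + t * b₂ ≠ 0 ∧ a₃ + t * b₃ ≠ 0 := by
  have key : ∀ a b t : F, (a ≠ 0 ∨ a + b ≠ 0) → t ≠ -a / b → a + t * b ≠ 0 := by
    intro a b t h ht e
    by_cases hb : b = 0
    · subst hb; simp at h e; exact h e
    · apply ht; field_simp; linear_combination e
  obtain ⟨t, e1, e2, e3⟩ := h3 (-a₁ / b₁) (-a₂ / b₂) (-a₃ / b₃)
  exact ⟨t, key _ _ _ h₁ e1, key _ _ _ h₂ e2, key _ _ _ h₃ e3⟩

theorem aff3 (h3 : Big F) (S : Set V) (hS : ∀ p ∈ S, ∀ q ∈ S, ∀ t : F, p + t • (q - p) ∈ S)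
    (l₁ l₂ l₃ : V →ₗ[F] F) (h₁ : ∃ p ∈ S, l₁ p ≠ 0) (h₂ : ∃ p ∈ S, l₂ p ≠ 0)
    (h₃ : ∃ p ∈ S, l₃ p ≠ 0) : ∃ p ∈ S, l₁ p ≠ 0 ∧ l₂ p ≠ 0 ∧ l₃ p ≠ 0 := by
  obtain ⟨p₁, m₁, e₁⟩ := h₁
  obtain ⟨p₂, m₂, e₂⟩ := h₂
  obtain ⟨p₃, m₃, e₃⟩ := h₃
  obtain ⟨t, a1, a2, -⟩ := exists_t h3 (a₁ := l₁ p₁) (b₁ := l₁ p₂ - l₁ p₁) (a₂ := l₂ p₁)
    (b₂ := l₂ p₂ - l₂ p₁) (a₃ := 1) (b₃ := 0) (Or.inl e₁) (Or.inr (by simpa using e₂)) (by simp)
  set q := p₁ + t • (p₂ - p₁) with hq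
  have b1 : l₁ q ≠ 0 := by simpa [hq] using a1
  have b2 : l₂ q ≠ 0 := by simpa [hq] using a2
  obtain ⟨s, c1, c2, c3⟩ := exists_t h3 (a₁ := l₁ q) (b₁ := l₁ p₃ - l₁ q) (a₂ := l₂ q)
    (b₂ := l₂ p₃ - l₂ q) (a₃ := l₃ q) (b₃ := l₃ p₃ - l₃ q) (Or.inl b1) (Or.inl b2)
    (Or.inr (by simpa using e₃))
  exact ⟨q + s • (p₃ - q), hS _ (hS _ m₁ _ m₂ t) _ m₃ s, by simpa using c1, by simpa using c2,
    by simpa using c3⟩

theorem exists_g {z r : V} (h : ∀ t : F, z ≠ t • r) : ∃ g : V →ₗ[F] F, g z ≠ 0 ∧ g r = 0 := by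
  obtain ⟨g, h1, h2⟩ := Submodule.exists_le_ker_of_notMem (p := F ∙ r) (v := z) (by
    rw [Submodule.mem_span_singleton]; rintro ⟨t, e⟩; exact h t e.symm)
  exact ⟨g, h1, h2 (Submodule.mem_span_singleton_self r)⟩

theorem exists_f (h3 : Big F) {v r z₁ z₂ z₃ : V} (hv : ∀ t : F, v ≠ t • r) (h₁ : ∀ t : F, z₁ ≠ t • r)
    (h₂ : ∀ t : F, z₂ ≠ t • r) (h₃ : ∀ t : F, z₃ ≠ t • r) :
    ∃ f : V →ₗ[F] F, f v = 1 ∧ f r = 0 ∧ f z₁ ≠ 0 ∧ f z₂ ≠ 0 ∧ f z₃ ≠ 0 := by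
  have key : ∀ z : V, (∀ t : F, z ≠ t • r) →
      ∃ f ∈ {f : V →ₗ[F] F | f v = 1 ∧ f r = 0}, LinearMap.applyₗ z f ≠ 0 := by
    intro z hz
    obtain ⟨g₁, a1, a2⟩ := exists_g hv
    obtain ⟨g₂, b1, b2⟩ := exists_g hz
    obtain ⟨t, c1, c2, -⟩ := exists_t h3 (a₁ := g₁ v) (b₁ := g₂ v - g₁ v) (a₂ := g₁ z)
      (b₂ := g₂ z - g₁ z) (a₃ := 1) (b₃ := 0) (Or.inl a1) (Or.inr (by simpa using b1)) (by simp)
    refine ⟨(g₁ v + t * (g₂ v - g₁ v))⁻¹ • (g₁ + t • (g₂ - g₁)), ⟨?_, ?_⟩, ?_⟩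
    · simpa [← mul_add] using inv_mul_cancel₀ c1
    · simp [a2, b2]
    · simpa [← mul_add] using ⟨c1, c2⟩
  obtain ⟨f, ⟨e1, e2⟩, e3⟩ := aff3 h3 {f : V →ₗ[F] F | f v = 1 ∧ f r = 0}
    (fun p hp q hq t => ⟨by simp [hp.1, hq.1], by simp [hp.2, hq.2]⟩) _ _ _ (key _ h₁) (key _ h₂)
    (key _ h₃)
  exact ⟨f, e1, e2, e3⟩

theorem ind_of {v u : V} (hv : v ≠ 0) (h : ∀ t : F, u ≠ t • v) (a b : F) (e : a • v + b • u = 0) :
    a = 0 ∧ b = 0 := by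
  have hb : b = 0 := by
    by_contra hb
    apply h (-a / b)
    have : u = b⁻¹ • (b • u) := by rw [smul_smul, inv_mul_cancel₀ hb, one_smul]
    rw [this, eq_neg_of_add_eq_zero_right e, ← neg_smul, smul_smul]
    congr 1; ring
  rw [hb, zero_smul, add_zero, smul_eq_zero] at e
  exact ⟨e.resolve_right hv, hb⟩

theorem exists_noneig {R : End F V} (h : ¬ ∃ c : F, ∀ z, R z = c • z) :
    ∃ v, ∀ t : F, R v ≠ t • v := by
  by_contra hc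
  push Not at hc
  apply h
  by_cases h0 : ∃ v : V, v ≠ 0
  · obtain ⟨v, hv⟩ := h0
    obtain ⟨c, hcv⟩ := hc v
    refine ⟨c, fun z => ?_⟩
    by_cases hz : ∃ t : F, z = t • v
    · obtain ⟨t, rfl⟩ := hz
      rw [map_smul, hcv, smul_comm]
    · push Not at hz
      obtain ⟨a, ha⟩ := hc z
      obtain ⟨b, hb⟩ := hc (v + z)
      rw [map_add, hcv, ha] at hb
      obtain ⟨e1, e2⟩ := ind_of hv hz (c - b) (a - b) (by linear_combination (norm := module) hb)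
      rw [ha, show a = c by linear_combination e2 - e1]
  · push Not at h0
    exact ⟨0, fun z => by rw [h0 z]; simp⟩

theorem line (h3 : Big F) {R : End F V} {v u : V} (hv : ∀ t : F, R v ≠ t • v)
    (hi : ∀ a b : F, a • v + b • u = 0 → a = 0 ∧ b = 0) (t₀ : F) :
    ∃ t, t ≠ t₀ ∧ ∀ s : F, R (t • v + u) ≠ s • (t • v + u) := by
  by_contra hc
  push Not at hc
  obtain ⟨t₁, a1, -, -⟩ := h3 t₀ t₀ t₀
  obtain ⟨t₂, b1, b2, -⟩ := h3 t₀ t₁ t₁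
  obtain ⟨t₃, c1, c2, c3⟩ := h3 t₀ t₁ t₂
  obtain ⟨l₁, e₁⟩ := hc t₁ a1
  obtain ⟨l₂, e₂⟩ := hc t₂ b1
  obtain ⟨l₃, e₃⟩ := hc t₃ c1
  rw [map_add, map_smul] at e₁ e₂ e₃
  obtain ⟨k1, k2⟩ := hi ((t₁ - t₃) * (l₁ * t₁ - l₂ * t₂) - (t₁ - t₂) * (l₁ * t₁ - l₃ * t₃))
    ((t₁ - t₃) * (l₁ - l₂) - (t₁ - t₂) * (l₁ - l₃))
    (by linear_combination (norm := module) (t₃ - t₂) • e₁ + (t₁ - t₃) • e₂ - (t₁ - t₂) • e₃)
  have k3 : (t₁ - t₃) * (l₁ - l₂) * (t₂ - t₃) = 0 := by linear_combination k1 - t₃ * k2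
  have k4 : l₁ = l₂ := by
    rcases mul_eq_zero.mp k3 with h | h
    · rcases mul_eq_zero.mp h with h | h
      · exact absurd (sub_eq_zero.mp h) c2.symm
      · exact sub_eq_zero.mp h
    · exact absurd (sub_eq_zero.mp h) c3.symm
  subst k4
  apply hv l₁
  have : (t₁ - t₂) • (R v - l₁ • v) = 0 := by linear_combination (norm := module) e₁ - e₂
  rw [smul_eq_zero, sub_eq_zero, sub_eq_zero] at this
  exact this.resolve_left b2.symm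

theorem choose_v [FiniteDimensional F V] (h3 : Big F) {R : End F V}
    (hns : ¬ ∃ c : F, ∀ z, R z = c • z) (hrk : ∀ u, ∃ z, ∀ t : F, R z ≠ t • u) {x : V} (hx : x ≠ 0)
    {y : V →ₗ[F] F} (hy : ∃ z, y z ≠ 0) :
    ∃ v, (∀ t : F, R v ≠ t • v) ∧ y v ≠ 0 ∧ (∀ t : F, x ≠ t • R v) ∧
      (Function.Surjective R ∨ ∀ z, R z ≠ v) := by
  by_cases hs : Function.Surjective R
  · have hinj : Function.Injective R := LinearMap.injective_iff_surjective.mpr hs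
    obtain ⟨w, rfl⟩ := hs x
    have hw : w ≠ 0 := by rintro rfl; simp at hx
    suffices h : ∃ v, (∀ t : F, R v ≠ t • v) ∧ y v ≠ 0 ∧ ∀ t : F, w ≠ t • v by
      obtain ⟨v, a1, a2, a3⟩ := h
      exact ⟨v, a1, a2, fun t e => a3 t (hinj (by rw [e, map_smul])), Or.inl hs⟩
    obtain ⟨v, hv⟩ := exists_noneig hns
    have hv0 : v ≠ 0 := by rintro rfl; exact hv 0 (by simp)
    by_cases hyv : y v = 0
    · obtain ⟨u, hu⟩ := hy
      have hi : ∀ a b : F, a • v + b • u = 0 → a = 0 ∧ b = 0 := ind_of hv0 fun t e => by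
        rw [e, map_smul, hyv, smul_zero] at hu; exact hu rfl
      obtain ⟨t₀, ht₀⟩ : ∃ t₀ : F, ∀ t, t ≠ t₀ → ∀ s : F, w ≠ s • (t • v + u) := by
        by_cases h : ∃ t s : F, w = s • (t • v + u)
        · obtain ⟨t₀, s₀, e⟩ := h
          refine ⟨t₀, fun t ht s e' => ?_⟩
          obtain ⟨k1, k2⟩ := hi (s₀ * t₀ - s * t) (s₀ - s) (by linear_combination (norm := module) e' - e)
          have k3 : s₀ * (t₀ - t) = 0 := by linear_combination k1 - t * k2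
          rcases mul_eq_zero.mp k3 with h | h
          · rw [h, zero_smul] at e; exact hw e
          · exact ht (sub_eq_zero.mp h).symm
        · push Not at h
          exact ⟨0, fun t _ => h t⟩
      obtain ⟨t, ht, h⟩ := line h3 hv hi t₀
      exact ⟨_, h, by simpa [hyv] using hu, ht₀ t ht⟩
    · by_cases hwv : ∃ s : F, w = s • v
      · obtain ⟨s, rfl⟩ := hwv
        have hi := ind_of hv0 hv
        obtain ⟨t, ht, h⟩ := line h3 hv hi (-y (R v) / y v)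
        refine ⟨_, h, fun e => ht ?_, fun s' e => ?_⟩
        · rw [map_add, map_smul, smul_eq_mul] at e
          field_simp; linear_combination e
        · obtain ⟨-, k2⟩ := hi (s' * t - s) s' (by linear_combination (norm := module) -e)
          rw [k2, zero_smul] at e; exact hw e
      · push Not at hwv
        exact ⟨v, hv, hyv, hwv⟩
  · obtain ⟨φ, hφ, hφR⟩ := Submodule.exists_le_ker_of_lt_top (LinearMap.range R)
      (lt_top_iff_ne_top.mpr (by rwa [Ne, LinearMap.range_eq_top]))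
    have hφR' : ∀ z, φ (R z) = 0 := fun z => hφR ⟨z, rfl⟩
    obtain ⟨z, hz⟩ := hrk x
    obtain ⟨g, g1, g2⟩ := exists_g hz
    obtain ⟨v, -, a1, a2, a3⟩ := aff3 h3 Set.univ (by simp) y (g ∘ₗ R) φ
      (by simpa using hy) ⟨z, trivial, g1⟩ (by
        by_contra hc; push Not at hc; exact hφ (LinearMap.ext fun z => hc z trivial))
    rw [LinearMap.comp_apply] at a2
    refine ⟨v, fun t e => ?_, a1, fun t e => ?_, Or.inr fun z e => a3 (e ▸ hφR' z)⟩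
    · have := hφR' v
      rw [e, map_smul, smul_eq_mul, mul_eq_zero] at this
      rw [this.resolve_right a3, zero_smul] at e
      rw [e, map_zero] at a2; exact a2 rfl
    · rw [e, map_smul, smul_eq_mul, mul_eq_zero] at g2
      rw [g2.resolve_right a2, zero_smul] at e
      exact hx e

end Cfsg.Agent.Lev
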