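import Mathlib
import Cfsg.Agent.Lev.A

set_option autoImplicit false

namespace Cfsg.Agent.Lev

open Module

universe u

variable {F : Type u} [Field F] {V : Type u} [AddCommGroup V] [Module F V]

theorem choose_f (h3 : Big F) {R : End F V} (hA : ∀ z, z + R z = 0 → z = 0)
    (hrk : ∀ u, ∃ z, ∀ t : F, R z ≠ t • u) {v x : V} (hv : ∀ t : F, R v ≠ t • v)
    (hx : ∀ t : F, x ≠ t • R v) (hs : Function.Surjective R ∨ ∀ z, R z ≠ v) :
    ∃ f : V →ₗ[F] F, f v = 1 ∧ f (R v) = 0 ∧ f x ≠ 0 ∧ (∃ z, f (R z) ≠ 0) ∧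
      ((∃ w₀, ∀ a b : F, w₀ ≠ a • v + b • R v) → ∀ D : End F V,
        (∀ z, D z = R z - f (R z) • (v + R v) - f z • R v) →
        (¬ ∃ c : F, ∀ w, f w = 0 → D w = c • w) ∧ ∃ z, D (D z) ≠ 0) := by
  have hv0 : v ≠ 0 := by rintro rfl; exact hv 0 (by simp)
  have hi := ind_of hv0 hv
  have hr0 : R v ≠ 0 := fun e => hv 0 (by simp [e])
  have hv' : ∀ t : F, v ≠ t • R v := fun t e =>
    one_ne_zero (hi 1 (-t) (by linear_combination (norm := module) e)).1
  obtain ⟨zb, hzb⟩ := hrk (R v)
  by_cases hw : ¬ ∃ w₀, ∀ a b : F, w₀ ≠ a • v + b • R v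
  · obtain ⟨f, e1, e2, e3, e4, -⟩ := exists_f h3 hv' hx hzb hx
    exact ⟨f, e1, e2, e3, ⟨zb, e4⟩, fun h => absurd h hw⟩
  push Not at hw
  obtain ⟨w₀, hw₀⟩ := hw
  by_cases hI : ∀ a b : F, R (R v) ≠ a • v + b • R v
  · obtain ⟨γ, hγ⟩ : ∃ γ : F, ∀ c a b : F, R (R (R v)) = c • R (R v) + a • v + b • R v → c = γ := by
      by_cases h : ∃ c a b : F, R (R (R v)) = c • R (R v) + a • v + b • R v
      · obtain ⟨γ, a₀, b₀, e⟩ := h
        refine ⟨γ, fun c a b e' => ?_⟩
        by_contra hc
        have hc' : c - γ ≠ 0 := sub_ne_zero.mpr hc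
        apply hI ((c - γ)⁻¹ * (a₀ - a)) ((c - γ)⁻¹ * (b₀ - b))
        have : (c - γ) • R (R v) = (a₀ - a) • v + (b₀ - b) • R v := by
          linear_combination (norm := module) e - e'
        rw [mul_smul, mul_smul, ← smul_add, ← this, smul_smul, inv_mul_cancel₀ hc', one_smul]
      · push Not at h
        exact ⟨0, fun c a b e => absurd e (h c a b)⟩
    obtain ⟨f, e1, e2, e3, e4, e5⟩ := exists_f h3 hv' hx (z₂ := R (R v)) (z₃ := R (R v) - γ • v)
      (fun t e => hI 0 t (by simp [e])) (fun t e => hI γ t (by linear_combination (norm := module) e))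
    refine ⟨f, e1, e2, e3, ⟨_, e4⟩, fun _ D hD => ⟨?_, R v, fun e => ?_⟩⟩
    · rintro ⟨c, hc⟩
      have := hc _ e2
      rw [hD, e2] at this
      exact hI (f (R (R v))) (f (R (R v)) + c) (by linear_combination (norm := module) this)
    · have d0 : D v = 0 := by rw [hD, e1, e2]; simp
      have d1 := hD (R v)
      have d2 := hD (R (R v))
      rw [e2] at d1
      rw [d1] at e
      simp only [map_sub, map_smul, map_add, d0, d2] at e
      rw [d1] at e
      have := hγ (f (R (R v))) (f (R (R (R v))) - f (R (R v)) * f (R (R v)))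
        (f (R (R (R v))) - f (R (R v)) * f (R (R v)) + f (R (R v)))
        (by linear_combination (norm := module) e)
      apply e5
      rw [map_sub, map_smul, e1, this]; simp
  push Not at hI
  obtain ⟨δ, γ, hII⟩ := hI
  by_cases hγ : γ = δ
  · subst hγ
    obtain ⟨z₀, hz₀⟩ : ∃ z₀, ∀ a b : F, R z₀ ≠ a • v + b • R v := by
      rcases hs with hs | hs
      · obtain ⟨z₀, rfl⟩ := hs w₀
        exact ⟨z₀, hw₀⟩
      · refine ⟨zb, fun a b e => ?_⟩
        by_cases ha : a = 0
        · exact hzb b (by rw [e, ha]; simp)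
        · apply hs (a⁻¹ • (zb - b • v))
          rw [map_smul, map_sub, map_smul, e, add_sub_cancel_right, smul_smul, inv_mul_cancel₀ ha,
            one_smul]
    obtain ⟨s, hs'⟩ : ∃ s : F, ∀ a b : F, R (R z₀) = a • v + b • R v → b - a = s := by
      by_cases h : ∃ a b : F, R (R z₀) = a • v + b • R v
      · obtain ⟨a₀, b₀, e⟩ := h
        refine ⟨b₀ - a₀, fun a b e' => ?_⟩
        obtain ⟨k1, k2⟩ := hi (a - a₀) (b - b₀) (by linear_combination (norm := module) e - e')
        linear_combination k2 - k1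
      · push Not at h
        exact ⟨0, fun a b e => absurd e (h a b)⟩
    obtain ⟨f, e1, e2, e3, e4, e5⟩ := exists_f h3 hv' hx hzb (z₃ := R z₀ - s • v)
      (fun t e => hz₀ s t (by linear_combination (norm := module) e))
    refine ⟨f, e1, e2, e3, ⟨_, e4⟩, fun _ D hD => ?_⟩
    have d0 : D v = 0 := by rw [hD, e1, e2]; simp
    have d1 : D (R v) = 0 := by
      rw [hD, e2, hII, map_add, map_smul, map_smul, e1, e2]
      simp only [smul_eq_mul, mul_one, mul_zero, add_zero]
      module
    have key : D (D z₀) ≠ 0 := by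
      intro e
      rw [hD z₀] at e
      simp only [map_sub, map_smul, map_add, d0, d1, smul_zero, add_zero, sub_zero] at e
      rw [hD] at e
      have := hs' (f (R (R z₀))) (f (R (R z₀)) + f (R z₀)) (by linear_combination (norm := module) e)
      apply e5
      rw [map_sub, map_smul, e1, ← this]; simp
    refine ⟨?_, z₀, key⟩
    rintro ⟨c, hc⟩
    have h1 := hc _ e2
    rw [d1, eq_comm, smul_eq_zero] at h1
    have h2 := hc (z₀ - f z₀ • v) (by simp [e1])
    rw [h1.resolve_right hr0, zero_smul, map_sub, map_smul, d0, smul_zero, sub_zero] at h2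
    apply key
    rw [h2, map_zero]
  · have hμ : 1 + γ - δ ≠ 0 := by
      intro e
      apply hv δ
      rw [← sub_eq_zero]
      apply hA
      rw [map_sub, map_smul, hII, show γ = δ - 1 by linear_combination e]
      module
    obtain ⟨s, hs'⟩ : ∃ s : F, ∀ a b : F, R w₀ - (γ - δ) • w₀ = a • v + b • R v →
        b - a = (1 + γ - δ) * s := by
      by_cases h : ∃ a b : F, R w₀ - (γ - δ) • w₀ = a • v + b • R v
      · obtain ⟨a₀, b₀, e⟩ := h
        refine ⟨(b₀ - a₀) / (1 + γ - δ), fun a b e' => ?_⟩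
        obtain ⟨k1, k2⟩ := hi (a - a₀) (b - b₀) (by linear_combination (norm := module) e - e')
        field_simp
        linear_combination k2 - k1
      · push Not at h
        exact ⟨0, fun a b e => absurd e (h a b)⟩
    obtain ⟨f, e1, e2, e3, e4, e5⟩ := exists_f h3 hv' hx hzb (z₃ := w₀ - s • v)
      (fun t e => hw₀ s t (by linear_combination (norm := module) e))
    refine ⟨f, e1, e2, e3, ⟨_, e4⟩, fun _ D hD => ?_⟩
    have d0 : D v = 0 := by rw [hD, e1, e2]; simp
    have d1 : D (R v) = (γ - δ) • R v := by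
      rw [hD, e2, hII, map_add, map_smul, map_smul, e1, e2]
      simp only [smul_eq_mul, mul_one, mul_zero, add_zero]
      module
    have hγ' : γ - δ ≠ 0 := sub_ne_zero.mpr hγ
    refine ⟨?_, R v, ?_⟩
    · rintro ⟨c, hc⟩
      have h1 := hc _ e2
      rw [d1, ← sub_eq_zero, ← sub_smul, smul_eq_zero, sub_eq_zero] at h1
      have h2 := hc (w₀ - f w₀ • v) (by simp [e1])
      rw [← h1.resolve_right hr0, map_sub, map_smul, d0, smul_zero, sub_zero, hD] at h2
      have := hs' (f (R w₀) - (γ - δ) * f w₀) (f (R w₀) + f w₀)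
        (by linear_combination (norm := module) h2)
      apply e5
      rw [map_sub, map_smul, e1, smul_eq_mul, mul_one, sub_eq_zero]
      apply mul_left_cancel₀ hμ
      linear_combination this
    · rw [d1, map_smul, d1]
      exact smul_ne_zero hγ' (smul_ne_zero hγ' hr0)

end Cfsg.Agent.Lev
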