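import Mathlib
import Cfsg.Agent.Lev.B
import Cfsg.Agent.Elu.Cmt1

set_option autoImplicit false

namespace Cfsg.Agent.Lev

open Module

universe u

variable {F : Type u} [Field F] {V : Type u} [AddCommGroup V] [Module F V]

/-- projection onto the kernel of `f` along `v` -/
def pr (f : V →ₗ[F] F) (v : V) (h : f v = 1) : V →ₗ[F] LinearMap.ker f :=
  LinearMap.codRestrict _ (LinearMap.id - f.smulRight v) (fun z => by simp [h])

theorem pr_coe (f : V →ₗ[F] F) (v : V) (h : f v = 1) (z : V) : (pr f v h z : V) = z - f z • v := rfl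

theorem pr_val (f : V →ₗ[F] F) (v : V) (h : f v = 1) (w : LinearMap.ker f) : pr f v h w = w := by
  apply Subtype.ext
  rw [pr_coe, LinearMap.mem_ker.mp w.2]; simp

theorem pr_self (f : V →ₗ[F] F) (v : V) (h : f v = 1) : pr f v h v = 0 := by
  apply Subtype.ext
  rw [pr_coe, h]; simp

theorem extL (f : V →ₗ[F] F) (v : V) (h : f v = 1) (N₁ : End F (LinearMap.ker f))
    (x' : LinearMap.ker f) (k : ℕ) (h1 : N₁ ^ (k + 1) = 0) (h2 : (N₁ ^ k) x' ≠ 0) :
    ∃ N : End F V, (∀ z, N z = N₁ (pr f v h z) + f z • (x' : V)) ∧ N ^ (k + 2) = 0 ∧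
      ∀ x, f x ≠ 0 → (N ^ (k + 1)) x ≠ 0 := by
  let N : End F V := (LinearMap.ker f).subtype ∘ₗ N₁ ∘ₗ pr f v h + f.smulRight (x' : V)
  have e : ∀ z, N z = ((N₁ (pr f v h z) + f z • x' : LinearMap.ker f) : V) := fun z => rfl
  have e1 : ∀ j, ∀ w : LinearMap.ker f, (N ^ j) w = ((N₁ ^ j) w : LinearMap.ker f) := by
    intro j
    induction j with
    | zero => intro w; rfl
    | succ j ih =>
      intro w
      rw [pow_succ, End.mul_apply, e, ih, pr_val, LinearMap.mem_ker.mp w.2, zero_smul, add_zero,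
        pow_succ, End.mul_apply]
  refine ⟨N, e, ?_, fun x hx => ?_⟩
  · ext z
    rw [pow_succ, End.mul_apply, e, e1, h1]; rfl
  · rw [pow_succ, End.mul_apply, e, e1, map_add, ← End.mul_apply, ← pow_succ, h1, map_smul]
    simpa using ⟨hx, h2⟩

theorem extU (f : V →ₗ[F] F) (v : V) (h : f v = 1) (M₁ : End F (LinearMap.ker f))
    (y' : LinearMap.ker f →ₗ[F] F) (k : ℕ) (h1 : M₁ ^ (k + 1) = 0) (h2 : ∃ w, y' ((M₁ ^ k) w) ≠ 0) :
    ∃ M : End F V, (∀ z, M z = M₁ (pr f v h z) + y' (pr f v h z) • v) ∧ M ^ (k + 2) = 0 ∧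
      ∃ z, ∃ c : F, c ≠ 0 ∧ (M ^ (k + 1)) z = c • v := by
  let M : End F V := (LinearMap.ker f).subtype ∘ₗ M₁ ∘ₗ pr f v h + (y' ∘ₗ pr f v h).smulRight v
  have e : ∀ z, M z = M₁ (pr f v h z) + y' (pr f v h z) • v := fun z => rfl
  have e1 : ∀ j, ∀ z, pr f v h ((M ^ j) z) = (M₁ ^ j) (pr f v h z) := by
    intro j
    induction j with
    | zero => intro w; rfl
    | succ j ih =>
      intro w
      rw [pow_succ', End.mul_apply, e, map_add, map_smul, pr_self, pr_val, ih, smul_zero, add_zero,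
        pow_succ', End.mul_apply]
  refine ⟨M, e, ?_, ?_⟩
  · ext z
    rw [pow_succ', End.mul_apply, e, e1, h1]; simp
  · obtain ⟨w, hw⟩ := h2
    refine ⟨w, _, hw, ?_⟩
    rw [pow_succ', End.mul_apply, e, e1, pr_val, ← End.mul_apply, ← pow_succ', h1]; simp

theorem finrank_ker [FiniteDimensional F V] (f : V →ₗ[F] F) (v : V) (h : f v = 1) :
    finrank F (LinearMap.ker f) + 1 = finrank F V := by
  have := f.finrank_range_add_finrank_ker
  rw [LinearMap.range_eq_top.mpr (fun c => ⟨c • v, by simp [h]⟩), finrank_top, finrank_self] at this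
  omega

theorem rank_one [FiniteDimensional F V] {R : End F V} (hd : LinearMap.det (1 + R) = 1) {u : V}
    (h : ∀ z, ∃ t : F, R z = t • u) :
    R = 0 ∨ (u ≠ 0 ∧ ∃ φ : V →ₗ[F] F, φ u = 0 ∧ ∀ z, R z = φ z • u) := by
  by_cases hu : u = 0
  · left
    ext z
    obtain ⟨t, e⟩ := h z
    simp [e, hu]
  · obtain ⟨g, hg⟩ := Projective.exists_dual_eq_one F hu
    have e : ∀ z, R z = (g ∘ₗ R) z • u := by
      intro z
      obtain ⟨t, e⟩ := h z
      simp [e, hg]
    have e1 : 1 + R = LinearMap.transvection (g ∘ₗ R) u := by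
      ext z
      rw [LinearMap.transvection.apply, ← e]; rfl
    rw [e1, LinearMap.transvection.det] at hd
    exact Or.inr ⟨hu, g ∘ₗ R, by simpa using hd, e⟩

theorem main (h3 : Big F) (n : ℕ) : ∀ (V : Type u) [AddCommGroup V] [Module F V]
    [FiniteDimensional F V] (R : End F V), finrank F V = n + 1 → LinearMap.det (1 + R) = 1 →
    (n ≠ 0 → (¬ ∃ c : F, ∀ z, R z = c • z) ∧ ∀ u, ∃ z, ∀ t : F, R z ≠ t • u) →
    ∀ x : V, x ≠ 0 → ∀ y : V →ₗ[F] F, (∃ z, y z ≠ 0) →
    ∃ N M : End F V, 1 + R = (1 + N) * (1 + M) ∧ N ^ (n + 1) = 0 ∧ (N ^ n) x ≠ 0 ∧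
      M ^ (n + 1) = 0 ∧ ∃ z, y ((M ^ n) z) ≠ 0 := by
  induction n with
  | zero =>
    intro V _ _ _ R hn hd _ x hx y hy
    have hR : R = 0 := by
      obtain ⟨v, hv, hv'⟩ := finrank_eq_one_iff'.mp hn
      rcases rank_one hd (u := v) (fun z => by
        obtain ⟨c, e⟩ := hv' (R z); exact ⟨c, e.symm⟩) with h | ⟨-, φ, e1, e2⟩
      · exact h
      · ext z
        obtain ⟨c, rfl⟩ := hv' z
        simp [e2, e1]
    exact ⟨0, 0, by simp [hR], by simp, by simpa using hx, by simp, by simpa using hy⟩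
  | succ n ih =>
    intro V _ _ _ R hn hd hR x hx y hy
    obtain ⟨hns, hrk⟩ := hR (by omega)
    have hA : ∀ z, z + R z = 0 → z = 0 := by
      have hu : IsUnit (1 + R) := (LinearMap.isUnit_iff_isUnit_det _).mpr (by rw [hd]; exact isUnit_one)
      have hk := (LinearMap.isUnit_iff_ker_eq_bot _).mp hu
      exact fun z hz => LinearMap.ker_eq_bot'.mp hk z hz
    obtain ⟨v, hv, hyv, hxv, hs⟩ := choose_v h3 hns hrk hx hy
    obtain ⟨f, e1, e2, e3, ⟨z₁, e4⟩, e5⟩ := choose_f h3 hA hrk hv hxv hs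
    let D : End F V := R - (f ∘ₗ R).smulRight (v + R v) - f.smulRight (R v)
    have hD : ∀ z, D z = R z - f (R z) • (v + R v) - f z • R v := fun z => rfl
    have hfD : ∀ z, f (D z) = 0 := fun z => by simp [hD, e1, e2]
    have d0 : D v = 0 := by rw [hD, e1, e2]; simp
    let R₁ : End F (LinearMap.ker f) := pr f v e1 ∘ₗ D ∘ₗ (LinearMap.ker f).subtype
    have hR₁ : ∀ w, (R₁ w : V) = D w := fun w => by
      change (pr f v e1 (D w) : V) = _
      rw [pr_coe, hfD]; simp
    have hDp : ∀ z, D (pr f v e1 z) = D z := fun z => by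
      rw [pr_coe, map_sub, map_smul, d0]; simp
    have hk := finrank_ker f v e1
    have hd₁ : LinearMap.det (1 + R₁) = 1 := by
      have := Com.det_ses (T := (1 + R) * LinearMap.transvection (-(f ∘ₗ R)) v) (T1 := 1 + R₁)
        (T2 := (1 : End F F)) (LinearMap.ker f).subtype f Subtype.val_injective
        (fun c => ⟨c • v, by simp [e1]⟩) (fun w => by
          change (w : V) + (R₁ w : V) = _
          rw [hR₁, hD, LinearMap.mem_ker.mp w.2, End.mul_apply, LinearMap.transvection.apply]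
          simp only [LinearMap.add_apply, End.one_apply, map_add, map_smul, LinearMap.neg_apply,
            LinearMap.comp_apply, Submodule.subtype_apply]
          module)
        (fun z => by simp [LinearMap.transvection.apply, e1, e2]) (fun w => w.2)
        (by rw [finrank_self, hk])
      rw [map_mul, hd, LinearMap.transvection.det] at this
      simpa [e2] using this.symm
    obtain ⟨N₁, M₁, k1, k2, k3, k4, k5⟩ := ih (LinearMap.ker f) R₁ (by omega) hd₁ (fun hn0 => by
        obtain ⟨a1, z, a2⟩ := e5 (by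
          classical
          by_contra hc
          push Not at hc
          have h1 : (⊤ : Submodule F V) ≤ Submodule.span F (({v, R v} : Finset V) : Set V) := by
            intro w _
            obtain ⟨a, b, e⟩ := hc w
            rw [Finset.coe_pair, Submodule.mem_span_pair]
            exact ⟨a, b, e.symm⟩
          have h2 := Submodule.finrank_mono h1
          have h4 := finrank_span_finset_le_card (R := F) ({v, R v} : Finset V)
          have h5 : ({v, R v} : Finset V).card ≤ 2 := Finset.card_le_two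
          rw [finrank_top] at h2
          unfold Set.finrank at h4
          omega) D hD
        refine ⟨fun ⟨c, hc⟩ => a1 ⟨c, fun w hw => ?_⟩, fun u => ?_⟩
        · rw [← hR₁ ⟨w, hw⟩, hc]; rfl
        · by_contra hc
          push Not at hc
          apply a2
          rw [← hDp z, ← hR₁, ← hR₁]
          rcases rank_one hd₁ hc with h | ⟨-, φ, b1, b2⟩
          · simp [h]
          · rw [b2 (pr f v e1 z), map_smul, b2 u, b1]; simp)
      ⟨R v, e2⟩ (fun e => hv 0 (by simpa using congrArg Subtype.val e))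
      (f ∘ₗ R ∘ₗ (LinearMap.ker f).subtype) ⟨pr f v e1 z₁, by simpa [pr_coe, e2] using e4⟩
    obtain ⟨N, l1, l2, l3⟩ := extL f v e1 N₁ _ n k2 k3
    obtain ⟨M, m1, m2, z, c, m3, m4⟩ := extU f v e1 M₁ _ n k4 k5
    refine ⟨N, M, ?_, l2, l3 x e3, m2, z, by rw [m4]; simpa using ⟨m3, hyv⟩⟩
    ext z
    have p1 : (f ∘ₗ R ∘ₗ (LinearMap.ker f).subtype) (pr f v e1 z) = f (R z) := by
      simp [pr_coe, e2]
    have p2 := congrArg Subtype.val (LinearMap.congr_fun k1 (pr f v e1 z))
    simp only [LinearMap.add_apply, End.one_apply, End.mul_apply, map_add, Submodule.coe_add] at p2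
    rw [hR₁, hDp, hD] at p2
    simp only [LinearMap.add_apply, End.one_apply, End.mul_apply]
    rw [m1, p1, l1]
    simp only [map_add, map_smul, pr_val, pr_self, e1, LinearMap.mem_ker.mp (M₁ _).2,
      Submodule.coe_add, smul_zero, add_zero, smul_eq_mul, mul_one, zero_add]
    linear_combination (norm := module) p2

theorem regnil (n : ℕ) : ∀ (V : Type u) [AddCommGroup V] [Module F V]
    [FiniteDimensional F V], finrank F V = n + 1 → ∀ u : V, u ≠ 0 →
    ∃ M : End F V, M u = 0 ∧ M ^ (n + 1) = 0 ∧ ∃ z, (M ^ n) z ≠ 0 := by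
  induction n with
  | zero => exact fun V _ _ _ _ u hu => ⟨0, rfl, by simp, u, by simpa using hu⟩
  | succ n ih =>
    intro V _ _ _ hn u hu
    obtain ⟨f, hf⟩ := Projective.exists_dual_eq_one F hu
    have hk := finrank_ker f u hf
    haveI : Nontrivial (LinearMap.ker f) := nontrivial_of_finrank_eq_succ (R := F) (n := n) (by omega)
    obtain ⟨u', hu'⟩ := exists_ne (0 : LinearMap.ker f)
    obtain ⟨M₁, -, a2, w, a3⟩ := ih (LinearMap.ker f) (by omega) u' hu'
    obtain ⟨y', hy'⟩ := Projective.exists_dual_ne_zero F a3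
    obtain ⟨M, m1, m2, z, c, m3, m4⟩ := extU f u hf M₁ y' n a2 ⟨w, hy'⟩
    exact ⟨M, by rw [m1, pr_self]; simp, m2, z, by rw [m4]; exact smul_ne_zero m3 hu⟩

end Cfsg.Agent.Lev
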